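import Cfsg.Prelude.Def_GeometricClasses
import Cfsg.Agent.H97.LinearCriteria
import Cfsg.Agent.H98.QuadFun
import Cfsg.Agent.H4.DiscClass
import Cfsg.Agent.H4.OutBasic
import Cfsg.Agent.H62.InvolutiveSimilarity

/-!
# Elements of `SL_n` conjugate into the similarity group of a quadratic form
-/

set_option autoImplicit false

namespace Cfsg.Agent.H98.FP

open QuadraticMap hiding sq
open Module
open scoped Matrix

variable {F : Type*} [Field F] {n : ℕ}

/-- `x` has an `SL`-conjugate that is a similarity of `Q`. -/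
def Good (Q : (Fin n → F) → F) (x : GL (Fin n) F) : Prop :=
  ∃ g ∈ Cfsg.Geo.specialLinear (Fin n) F, g⁻¹ * x * g ∈ Cfsg.Geo.quadSimilarityGroup Q

/-- The operator of a matrix. -/
abbrev op (x : GL (Fin n) F) : End F (Fin n → F) := Matrix.toLin' (x : Matrix (Fin n) (Fin n) F)

theorem op_mul (x y : GL (Fin n) F) : op (x * y) = op x * op y := by
  simp [op, Module.End.mul_eq_comp, Matrix.toLin'_mul]

theorem op_inj {x y : GL (Fin n) F} (h : op x = op y) : x = y :=
  Units.ext (Matrix.toLin'.injective h)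

theorem op_pow (x : GL (Fin n) F) (k : ℕ) : op (x ^ k) = op x ^ k := by
  induction k with
  | zero => simp [op, Module.End.one_eq_id]
  | succ k ih => rw [pow_succ, pow_succ, op_mul, ih]

/-- The element of `GL` of an operator with non-zero determinant. -/
theorem exists_gl_of_op (f : End F (Fin n → F)) (hf : LinearMap.det f ≠ 0) :
    ∃ x : GL (Fin n) F, op x = f :=
  ⟨Matrix.GeneralLinearGroup.mkOfDetNeZero (LinearMap.toMatrix' f)
    (by rw [LinearMap.det_toMatrix']; exact hf), Matrix.toLin'_toMatrix' f⟩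

/-- A sufficient condition: a similar transform of `Q` is preserved up to a scalar, and the
centraliser has every determinant. -/
theorem good_of_form (Q : QuadraticForm F (Fin n → F)) (x : GL (Fin n) F) {c : F} (hc : c ≠ 0)
    (h : (Fin n → F) ≃ₗ[F] (Fin n → F)) (hform : ∀ v, Q (h (op x v)) = c * Q (h v))
    (hdet : ∀ t : F, t ≠ 0 → ∃ Z : End F (Fin n → F), Z * op x = op x * Z ∧ LinearMap.det Z = t) :
    Good ⇑Q x := by
  obtain ⟨H, hH⟩ := exists_gl_of_op (h : End F (Fin n → F)) (LinearEquiv.isUnit_det' h).ne_zero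
  obtain ⟨Z, hZx, hZd⟩ := hdet _ (LinearEquiv.isUnit_det' h).ne_zero
  obtain ⟨z, hz⟩ := exists_gl_of_op Z (by rw [hZd]; exact (LinearEquiv.isUnit_det' h).ne_zero)
  have hzx : z * x = x * z := op_inj (by rw [op_mul, op_mul, hz, hZx])
  refine ⟨z * H⁻¹, ?_, Units.mk0 c hc, fun v => ?_⟩
  · rw [Cfsg.Geo.specialLinear, MonoidHom.mem_ker, map_mul, map_inv, mul_inv_eq_one]
    refine Units.ext ?_
    rw [Matrix.GeneralLinearGroup.val_det_apply, Matrix.GeneralLinearGroup.val_det_apply,
      ← LinearMap.det_toLin', ← LinearMap.det_toLin']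
    show LinearMap.det (op z) = LinearMap.det (op H)
    rw [hz, hH, hZd]
  · have e : (z * H⁻¹)⁻¹ * x * (z * H⁻¹) = H * x * H⁻¹ := by
      rw [mul_inv_rev, inv_inv, mul_assoc H z⁻¹ x, ← mul_assoc (H * (z⁻¹ * x)), mul_assoc H (z⁻¹ * x) z,
        mul_assoc z⁻¹ x z, ← hzx, inv_mul_cancel_left]
    rw [e, Units.val_mk0]
    obtain ⟨w, rfl⟩ : ∃ w, op H w = v := ⟨op H⁻¹ v, by
      rw [← Module.End.mul_apply, ← op_mul, mul_inv_cancel]; simp [op]⟩
    show Q (op (H * x * H⁻¹) (op H w)) = c * Q (op H w)
    rw [← Module.End.mul_apply, ← op_mul, inv_mul_cancel_right, op_mul, Module.End.mul_apply, hH]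
    exact hform w

/-- A conjugate similarity gives a preserved form isometric to `Q`. -/
theorem form_of_good (Q : QuadraticForm F (Fin n → F)) (hQ : (polarBilin Q).Nondegenerate)
    (x : GL (Fin n) F) (h : Good ⇑Q x) :
    ∃ (P : QuadraticForm F (Fin n → F)) (e : (Fin n → F) ≃ₗ[F] (Fin n → F)) (c : F),
      (polarBilin P).Nondegenerate ∧ c ≠ 0 ∧ (∀ v, P (op x v) = c * P v) ∧ ∀ v, P v = Q (e v) := by
  obtain ⟨g, -, c, hc⟩ := h
  let e : (Fin n → F) ≃ₗ[F] (Fin n → F) :=
    LinearEquiv.ofBijective (op g⁻¹) ((Module.End.isUnit_iff _).1 ⟨⟨op g⁻¹, op g,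
      by rw [← op_mul, inv_mul_cancel]; simp [op, Module.End.one_eq_id],
      by rw [← op_mul, mul_inv_cancel]; simp [op, Module.End.one_eq_id]⟩, rfl⟩)
  have he : ∀ v, e v = op g⁻¹ v := fun v => rfl
  refine ⟨Q.comp (e : (Fin n → F) →ₗ[F] (Fin n → F)), e, c, ?_, c.ne_zero, fun v => ?_, fun v => rfl⟩
  · exact H4.nondegenerate_of_isom (Q := Q) e.symm (fun v => by simp) hQ
  · show Q (e (op x v)) = (c : F) * Q (e v)
    rw [he, he]
    have e1 : op g⁻¹ (op x v) = op (g⁻¹ * x * g) (op g⁻¹ v) := by
      rw [← Module.End.mul_apply, ← op_mul, ← Module.End.mul_apply, ← op_mul, mul_assoc (g⁻¹ * x),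
        mul_inv_cancel, mul_one]
    rw [e1]
    exact hc _

/-- An operator with an eigenbasis commutes with maps of every determinant. -/
theorem det_comm_of_eigenbasis {ι : Type*} [Fintype ι] [DecidableEq ι] [Nonempty ι]
    (b : Basis ι F (Fin n → F)) (T : End F (Fin n → F)) (μ : ι → F) (hT : ∀ i, T (b i) = μ i • b i)
    (t : F) : ∃ Z : End F (Fin n → F), Z * T = T * Z ∧ LinearMap.det Z = t := by
  obtain ⟨i₀⟩ := ‹Nonempty ι›
  refine ⟨Matrix.toLin b b (Matrix.diagonal fun i => if i = i₀ then t else 1), b.ext fun i => ?_, ?_⟩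
  · have hZ : ∀ j, Matrix.toLin b b (Matrix.diagonal fun i => if i = i₀ then t else 1) (b j) =
        (if j = i₀ then t else 1) • b j := fun j => by
      rw [Matrix.toLin_self, Finset.sum_eq_single j]
      · simp
      · intro k _ hk; simp [Matrix.diagonal_apply_ne _ hk]
      · simp
    rw [Module.End.mul_apply, Module.End.mul_apply, hT, map_smul, hZ, map_smul, hT, smul_comm]
  · rw [LinearMap.det_toLin, Matrix.det_diagonal, Finset.prod_eq_single i₀]
    · simp
    · intro k _ hk; simp [hk]
    · simp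

/-- A form is scaled by an operator as soon as this holds on a basis. -/
theorem scaled_of_basis {ι : Type*} [Finite ι] {V : Type*} [AddCommGroup V] [Module F V]
    (P : QuadraticForm F V) (b : Basis ι F V) (T : End F V) (c : F)
    (h1 : ∀ i, P (T (b i)) = c * P (b i))
    (h2 : ∀ i j, i ≠ j → polar P (T (b i)) (T (b j)) = c * polar P (b i) (b j)) (v : V) :
    P (T v) = c * P v := by
  have h : P.comp T = c • P := by
    refine H4.qf_ext_basis b (fun i => ?_) fun i j => ?_
    · simpa using h1 i
    · by_cases hij : i = j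
      · subst hij
        have h1' := h1 i
        simp only [polar, QuadraticMap.comp_apply, QuadraticMap.smul_apply, smul_eq_mul, ← two_smul F (b i),
          map_smul, H4.qf_smul, h1']
        ring
      · have h2' := h2 i j hij
        simp only [polar, QuadraticMap.comp_apply, QuadraticMap.smul_apply, smul_eq_mul, map_add] at h2' ⊢
        linear_combination h2'
  exact QuadraticMap.congr_fun h v

variable [Fintype F]

/-- Involutions, up to scalars, preserve a transform of every form. -/
theorem good_of_sq_square (h2 : (2 : F) ≠ 0) (hn : 0 < n) (Q : QuadraticForm F (Fin n → F))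
    (hQ : (polarBilin Q).Nondegenerate) (x : GL (Fin n) F) {w : F} (hw : w ≠ 0)
    (hx : op x ^ 2 = (w * w) • 1) : Good ⇑Q x := by
  classical
  set T := op x
  set S : End F (Fin n → F) := w⁻¹ • T with hS
  have hSS : ∀ v, S (S v) = v := fun v => by
    have h1 := LinearMap.congr_fun hx v
    rw [sq, Module.End.mul_apply, LinearMap.smul_apply, Module.End.one_apply] at h1
    rw [hS, LinearMap.smul_apply, LinearMap.smul_apply, map_smul, h1, smul_smul, smul_smul]
    field_simp
    simp
  set A := LinearMap.ker (S - 1)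
  set B := LinearMap.ker (S + 1)
  have hdim := (H62.InvSim.det_involution h2 S hSS).1
  have hc : IsCompl A B := by
    have hd : Disjoint A B := Submodule.disjoint_def.2 fun v hv hv' => by
      simp only [A, B, LinearMap.mem_ker, LinearMap.sub_apply, LinearMap.add_apply,
        Module.End.one_apply] at hv hv'
      rw [sub_eq_zero.1 hv, ← two_smul F v] at hv'
      exact (smul_eq_zero.1 hv').resolve_left h2
    refine ⟨hd, codisjoint_iff.2 (Submodule.eq_top_of_finrank_eq ?_)⟩
    have := Submodule.finrank_sup_add_finrank_inf_eq A B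
    rw [hd.eq_bot, finrank_bot, add_zero] at this
    rw [this]; exact hdim
  let b₀ : Basis (Fin (finrank F A) ⊕ Fin (finrank F B)) F (Fin n → F) :=
    ((Module.finBasis F A).prod (Module.finBasis F B)).map (A.prodEquivOfIsCompl B hc)
  obtain ⟨m, rfl⟩ : ∃ m, n = m + 1 := ⟨n - 1, by omega⟩
  have hcard : Fintype.card (Fin (finrank F A) ⊕ Fin (finrank F B)) = m + 1 := by
    rw [← Module.finrank_eq_card_basis b₀, Module.finrank_fin_fun]
  let e := (Fintype.equivFinOfCardEq hcard)
  let b := b₀.reindex e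
  let μ : Fin (m + 1) → F := fun i => Sum.elim (fun _ => w) (fun _ => -w) (e.symm i)
  have hT : ∀ i, T (b i) = μ i • b i := fun i => by
    have hTS : ∀ v, T v = w • S v := fun v => by rw [hS, LinearMap.smul_apply, smul_smul, mul_inv_cancel₀ hw, one_smul]
    simp only [b, μ, Basis.reindex_apply]
    generalize e.symm i = j
    rcases j with j | j
    · have hm := (Module.finBasis F A j).2
      rw [LinearMap.mem_ker, LinearMap.sub_apply, Module.End.one_apply, sub_eq_zero] at hm
      simp [b₀, hTS]
      exact congrArg (w • ·) hm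
    · have hm := (Module.finBasis F B j).2
      rw [LinearMap.mem_ker, LinearMap.add_apply, Module.End.one_apply, add_eq_zero_iff_eq_neg] at hm
      simp [b₀, hTS]
      rw [← smul_neg]
      exact congrArg (w • ·) hm
  obtain ⟨α, hα⟩ := H5.exists_not_isSquare (F := F) h2
  obtain ⟨ob, d, -, hobp, -⟩ := H4.exists_orth_basis h2 hQ (n := m) (Module.finrank_fin_fun F) α hα
  have hμ : ∀ i, μ i * μ i = w * w := fun i => by
    simp only [μ]; generalize e.symm i = j; rcases j with j | j <;> simp
  refine good_of_form Q x (mul_ne_zero hw hw) (b.equiv ob (Equiv.refl _)) ?_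
    fun t _ => det_comm_of_eigenbasis b T μ hT t
  refine scaled_of_basis (Q.comp ((b.equiv ob (Equiv.refl _)) : (Fin (m + 1) → F) →ₗ[F] _)) b T _ (fun i => ?_) fun i j hij => ?_
  · rw [hT, H4.qf_smul, sq, hμ]
  · rw [hT, hT]
    simp only [polar_smul_left, polar_smul_right, smul_eq_mul]
    have h0 : polar (Q.comp ((b.equiv ob (Equiv.refl _)) : (Fin (m + 1) → F) →ₗ[F] _)) (b i) (b j) = 0 := by
      have h1 := hobp i j hij
      simp only [polar, QuadraticMap.comp_apply, LinearEquiv.coe_coe, map_add, Basis.equiv_apply,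
        Equiv.refl_apply] at h1 ⊢
      exact h1
    rw [h0]; ring

end Cfsg.Agent.H98.FP
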