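import Cfsg.Agent.H98.FormPreserve.Basic
import Cfsg.Agent.H3.Count

/-!
# Elements of `SL_n` conjugate into the similarity group of a unitary form
-/

set_option autoImplicit false

namespace Cfsg.Agent.H98.FP

open Module
open scoped Matrix

/-- `x` has an `SL`-conjugate that is a similarity of `f`. -/
def GoodU {F : Type*} [Field F] {n : ℕ} (f : (Fin n → F) → (Fin n → F) → F) (x : GL (Fin n) F) : Prop :=
  ∃ g ∈ Cfsg.Geo.specialLinear (Fin n) F, g⁻¹ * x * g ∈ Cfsg.Geo.similarityGroup f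

variable {F : Type*} [Field F] [Fintype F] {n q₀ : ℕ} (hF : Fintype.card F = q₀ ^ 2)
  {f : (Fin n → F) → (Fin n → F) → F} (hf : Cfsg.Geo.IsUnitaryFormPow q₀ f)

/-- The sesquilinear map `v u ↦ f u v`. -/
def herm : (Fin n → F) →ₛₗ[H3.conjQ hF] (Fin n → F) →ₗ[F] F :=
  LinearMap.mk₂'ₛₗ (H3.conjQ hF) (RingHom.id F) (fun v u => f u v)
    (fun v v' u => by
      rw [hf.herm, hf.add_left, H3.add_pow_q hF, ← hf.herm, ← hf.herm])
    (fun c v u => by
      rw [hf.herm, hf.smul_left, mul_pow, ← hf.herm, H3.conjQ_apply hF, smul_eq_mul])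
    (fun v u u' => hf.add_left u u' v)
    (fun c v u => by rw [hf.smul_left, RingHom.id_apply, smul_eq_mul])

theorem herm_apply (v u : Fin n → F) : herm hF hf v u = f u v := rfl

theorem isHerm_herm : H3.IsHerm (herm hF hf) q₀ where
  card_eq := hF
  sigma_apply := H3.conjQ_apply hF
  symm x y := by rw [herm_apply, herm_apply, H3.conjQ_apply hF, ← hf.herm]
  sep x hx := by
    by_contra h
    obtain ⟨⟨z, hz⟩, -⟩ := hf.nondegenerate x h
    exact hz ((herm_apply hF hf x z).symm.trans (hx z))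

variable {V W : Type*} [AddCommGroup V] [Module F V] [AddCommGroup W] [Module F W]

/-- Hermitian spaces of the same dimension are isometric. -/
theorem exists_isometry [FiniteDimensional F V] [FiniteDimensional F W]
    {B : V →ₛₗ[H3.conjQ hF] V →ₗ[F] F} (hB : H3.IsHerm B q₀)
    {B' : W →ₛₗ[H3.conjQ hF] W →ₗ[F] F} (hB' : H3.IsHerm B' q₀) {m : ℕ} (hV : finrank F V = m)
    (hW : finrank F W = m) : ∃ e : V ≃ₗ[F] W, ∀ u v, B' (e u) (e v) = B u v := by
  obtain ⟨b, hb⟩ := hB.exists_orth_basis hV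
  obtain ⟨b', hb'⟩ := hB'.exists_orth_basis hW
  refine ⟨b.equiv b' (Equiv.refl _), fun u v => ?_⟩
  set g := (b.equiv b' (Equiv.refl _) : V →ₗ[F] W) with hg
  have : (B'.comp g).compl₂ g = B := by
    refine b.ext fun i => b.ext fun j => ?_
    simp [hg, hb i j, hb' i j]
  exact LinearMap.congr_fun₂ this u v

omit [Fintype F] in
/-- A sufficient condition for a conjugate to be a similarity of `f`. -/
theorem goodU_of_form (x : GL (Fin n) F) {c : F} (hc : c ≠ 0)
    (h : (Fin n → F) ≃ₗ[F] (Fin n → F)) (hform : ∀ u v, f (h (op x u)) (h (op x v)) = c * f (h u) (h v))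
    (hdet : ∀ t : F, t ≠ 0 → ∃ Z : End F (Fin n → F), Z * op x = op x * Z ∧ LinearMap.det Z = t) :
    GoodU f x := by
  obtain ⟨H, hH⟩ := exists_gl_of_op (h : End F (Fin n → F)) (LinearEquiv.isUnit_det' h).ne_zero
  obtain ⟨Z, hZx, hZd⟩ := hdet _ (LinearEquiv.isUnit_det' h).ne_zero
  obtain ⟨z, hz⟩ := exists_gl_of_op Z (by rw [hZd]; exact (LinearEquiv.isUnit_det' h).ne_zero)
  have hzx : z * x = x * z := op_inj (by rw [op_mul, op_mul, hz, hZx])
  refine ⟨z * H⁻¹, ?_, Units.mk0 c hc, fun u v => ?_⟩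
  · rw [Cfsg.Geo.specialLinear, MonoidHom.mem_ker, map_mul, map_inv, mul_inv_eq_one]
    refine Units.ext ?_
    rw [Matrix.GeneralLinearGroup.val_det_apply, Matrix.GeneralLinearGroup.val_det_apply,
      ← LinearMap.det_toLin', ← LinearMap.det_toLin']
    show LinearMap.det (op z) = LinearMap.det (op H)
    rw [hz, hH, hZd]
  · have e : (z * H⁻¹)⁻¹ * x * (z * H⁻¹) = H * x * H⁻¹ := by
      rw [mul_inv_rev, inv_inv, mul_assoc H z⁻¹ x, ← mul_assoc (H * (z⁻¹ * x)), mul_assoc H (z⁻¹ * x) z,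
        mul_assoc z⁻¹ x z, ← hzx, inv_mul_cancel_left]
    rw [e, Units.val_mk0]
    have hsurj : ∀ v, ∃ w, op H w = v := fun v => ⟨op H⁻¹ v, by
      rw [← Module.End.mul_apply, ← op_mul, mul_inv_cancel]; simp [op]⟩
    obtain ⟨a, rfl⟩ := hsurj u
    obtain ⟨b, rfl⟩ := hsurj v
    show f (op (H * x * H⁻¹) (op H a)) (op (H * x * H⁻¹) (op H b)) = c * f (op H a) (op H b)
    rw [← Module.End.mul_apply, ← Module.End.mul_apply, ← op_mul, inv_mul_cancel_right, op_mul,
      Module.End.mul_apply, Module.End.mul_apply, hH]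
    exact hform a b

include hF hf in
/-- A conjugate similarity gives a preserved Hermitian form. -/
theorem herm_of_goodU (x : GL (Fin n) F) (h : GoodU f x) (hn : 0 < n) :
    ∃ (B : (Fin n → F) →ₛₗ[H3.conjQ hF] (Fin n → F) →ₗ[F] F) (c : F),
      H3.IsHerm B q₀ ∧ c ≠ 0 ∧ c ^ q₀ = c ∧ ∀ u v, B (op x u) (op x v) = c * B u v := by
  obtain ⟨g, -, c, hc⟩ := h
  let e : (Fin n → F) →ₗ[F] (Fin n → F) := op g⁻¹
  have he : ∀ u, op g (e u) = u := fun u => by
    rw [← Module.End.mul_apply, ← op_mul, mul_inv_cancel]; simp [op]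
  have hB := isHerm_herm hF hf
  let B : (Fin n → F) →ₛₗ[H3.conjQ hF] (Fin n → F) →ₗ[F] F := ((herm hF hf).comp e).compl₂ e
  have hB' : H3.IsHerm B q₀ := by
    refine ⟨hF, hB.sigma_apply, fun u v => hB.symm _ _, fun u hu => ?_⟩
    have h0 : e u = 0 := hB.sep _ fun y => by
      have h1 := hu (op g y)
      have h2 : e (op g y) = y := by
        rw [← Module.End.mul_apply, ← op_mul, inv_mul_cancel]; simp [op]
      simp only [B, LinearMap.compl₂_apply, LinearMap.comp_apply, h2] at h1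
      exact h1
    rw [← he u, h0, map_zero]
  have hBx : ∀ u v, B (op x u) (op x v) = (c : F) * B u v := fun u v => by
    have e1 : ∀ w, e (op x w) = op (g⁻¹ * x * g) (e w) := fun w => by
      rw [← Module.End.mul_apply, ← op_mul, ← Module.End.mul_apply, ← op_mul, mul_assoc (g⁻¹ * x),
        mul_inv_cancel, mul_one]
    simp only [B, LinearMap.compl₂_apply, LinearMap.comp_apply, herm_apply, e1]
    exact hc _ _
  refine ⟨B, c, hB', c.ne_zero, ?_, hBx⟩
  obtain ⟨b, hb⟩ := hB'.exists_orth_basis (Module.finrank_fin_fun F)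
  have h1 := hBx (b ⟨0, hn⟩) (b ⟨0, hn⟩)
  rw [hb, if_pos rfl, mul_one] at h1
  rw [← h1]
  exact hB'.self_pow_q _

section Gram

variable {ι : Type*} [Fintype ι] [DecidableEq ι]

/-- The Hermitian form whose Gram matrix in `b` is the permutation matrix of `π`. -/
noncomputable def gram (b : Basis ι F V) (π : ι → ι) : V →ₛₗ[H3.conjQ hF] V →ₗ[F] F :=
  LinearMap.mk₂'ₛₗ (H3.conjQ hF) (RingHom.id F)
    (fun v u => ∑ k, b.repr u k * H3.conjQ hF (b.repr v (π k)))
    (fun v v' u => by simp [-H3.conjQ_apply, mul_add, Finset.sum_add_distrib])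
    (fun c v u => by simp [-H3.conjQ_apply, Finset.mul_sum, mul_left_comm])
    (fun v u u' => by simp [add_mul, Finset.sum_add_distrib])
    (fun c v u => by simp [Finset.mul_sum, mul_assoc])

omit [DecidableEq ι] in
theorem gram_apply (b : Basis ι F V) (π : ι → ι) (v u : V) :
    gram hF b π v u = ∑ k, b.repr u k * H3.conjQ hF (b.repr v (π k)) := rfl

theorem gram_basis (b : Basis ι F V) {π : ι → ι} (i j : ι) :
    gram hF b π (b i) (b j) = if π j = i then 1 else 0 := by
  rw [gram_apply, Finset.sum_eq_single j]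
  · simp [Finsupp.single_apply, eq_comm]
  · intro k _ hk; simp [Finsupp.single_apply, hk.symm]
  · simp

theorem isHerm_gram (b : Basis ι F V) {π : ι → ι} (hπ : ∀ i, π (π i) = i) :
    H3.IsHerm (gram hF b π) q₀ where
  card_eq := hF
  sigma_apply := H3.conjQ_apply hF
  symm v u := by
    rw [gram_apply, gram_apply, map_sum]
    have hi : Function.Involutive π := hπ
    refine (Equiv.sum_comp hi.toPerm
      (fun k => H3.conjQ hF (b.repr u k * H3.conjQ hF (b.repr v (π k))))).symm.trans ?_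
    refine Finset.sum_congr rfl fun k _ => ?_
    show H3.conjQ hF (b.repr u (π k) * H3.conjQ hF (b.repr v (π (π k)))) = _
    rw [hπ, map_mul, H3.conjQ_conjQ, mul_comm]
  sep v hv := by
    refine b.ext_elem fun i => ?_
    have h := hv (b (π i))
    rw [gram_apply, Finset.sum_eq_single (π i)] at h
    · simpa [-H3.conjQ_apply, hπ] using h
    · intro k _ hk; simp [Finsupp.single_apply, hk.symm]
    · simp

include hF hf in
/-- An operator scaling a permutation Gram matrix gives a conjugate similarity. -/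
theorem goodU_of_gram (x : GL (Fin n) F) (b : Basis ι F (Fin n → F)) {π : ι → ι} (hπ : ∀ i, π (π i) = i)
    {c : F} (hc : c ≠ 0)
    (hT : ∀ i j, gram hF b π (op x (b i)) (op x (b j)) = c * if π j = i then 1 else 0)
    (hdet : ∀ t : F, t ≠ 0 → ∃ Z : End F (Fin n → F), Z * op x = op x * Z ∧ LinearMap.det Z = t) :
    GoodU f x := by
  obtain ⟨h, hh⟩ := exists_isometry hF (isHerm_gram hF b hπ) (isHerm_herm hF hf)
    (Module.finrank_fin_fun F) (Module.finrank_fin_fun F)
  refine goodU_of_form x hc h (fun u v => ?_) hdet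
  rw [← herm_apply hF hf, ← herm_apply hF hf, hh, hh]
  have : ((gram hF b π).comp (op x)).compl₂ (op x) = c • gram hF b π := by
    refine b.ext fun i => b.ext fun j => ?_
    rw [LinearMap.compl₂_apply, LinearMap.comp_apply, LinearMap.smul_apply, LinearMap.smul_apply,
      smul_eq_mul, gram_basis, hT]
  exact LinearMap.congr_fun₂ this v u

include hF hf in
/-- Monomial case: eigenvalues paired by `π`. -/
theorem goodU_of_eigen [Nonempty ι] (x : GL (Fin n) F) (b : Basis ι F (Fin n → F)) (μ : ι → F)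
    (hT : ∀ i, op x (b i) = μ i • b i) {π : ι → ι} (hπ : ∀ i, π (π i) = i) {c : F} (hc : c ≠ 0)
    (hμ : ∀ i, μ (π i) ^ q₀ * μ i = c) : GoodU f x := by
  refine goodU_of_gram hF hf x b hπ hc (fun i j => ?_) fun t _ => det_comm_of_eigenbasis b _ μ hT t
  rw [hT, hT, map_smul, LinearMap.map_smulₛₗ, LinearMap.smul_apply, gram_basis, smul_eq_mul, smul_eq_mul]
  by_cases hj : π j = i
  · subst hj
    rw [if_pos rfl, ← hμ j, H3.conjQ_apply]; ring
  · rw [if_neg hj]; ring

end Gram

end Cfsg.Agent.H98.FP
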